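import Cfsg.Agent.Lib.H08.Thom.Sign

/-!
# Thompson transfer for `T · D`, without transfer
-/

set_option autoImplicit false
set_option linter.unusedSectionVars false
set_option linter.unusedVariables false

namespace Cfsg.Agent.H08.Thom

open Subgroup

universe u

variable {G : Type u} [Group G] [Finite G]

/-- A subgroup's `ker` in the ambient group. -/
theorem mem_kerMap {H : Subgroup G} (φ : ↥H →* ℤˣ) (g : G) :
    g ∈ φ.ker.map H.subtype ↔ ∃ h : g ∈ H, φ ⟨g, h⟩ = 1 := by
  constructor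
  · rintro ⟨x, hx, rfl⟩
    exact ⟨x.2, hx⟩
  · rintro ⟨h, hg⟩
    exact ⟨⟨g, h⟩, hg, rfl⟩

theorem card_inf_ker {H : Subgroup G} (φ : ↥H →* ℤˣ) (A : Subgroup G) (hA : A ≤ H) :
    Nat.card A ≤ 2 * Nat.card ↥(A ⊓ φ.ker.map H.subtype) := by
  let ρ : ↥A →* ℤˣ := φ.comp (Subgroup.inclusion hA)
  have hker : ρ.ker = (A ⊓ φ.ker.map H.subtype).subgroupOf A := by
    ext a
    rw [MonoidHom.mem_ker, Subgroup.mem_subgroupOf, Subgroup.mem_inf, mem_kerMap]
    constructor
    · intro h
      exact ⟨a.2, hA a.2, h⟩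
    · rintro ⟨_, _, h⟩
      exact h
  have h1 : Nat.card ↥((A ⊓ φ.ker.map H.subtype).subgroupOf A) = Nat.card ↥(A ⊓ φ.ker.map H.subtype) :=
    Nat.card_congr (subgroupOfEquivOfLe inf_le_left).toEquiv
  have h2 := Subgroup.card_mul_index ρ.ker
  rw [Subgroup.index_ker, hker, h1] at h2
  have h3 : Nat.card ρ.range ≤ 2 := by
    have h4 : Nat.card ρ.range ≤ Nat.card ℤˣ := Subgroup.card_le_card_group _
    have h5 : Nat.card ℤˣ = 2 := by simp
    omega
  rw [← h2, mul_comm]
  exact Nat.mul_le_mul_right _ h3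

theorem card_inf_ker' {H : Subgroup G} (φ : ↥H →* ℤˣ) (A : Subgroup G) (hA : A ≤ H) {y : G} (hy : y ∈ A)
    (hφ : φ ⟨y, hA hy⟩ = -1) :
    Nat.card A = 2 * Nat.card ↥(A ⊓ φ.ker.map H.subtype) := by
  let ρ : ↥A →* ℤˣ := φ.comp (Subgroup.inclusion hA)
  have hker : ρ.ker = (A ⊓ φ.ker.map H.subtype).subgroupOf A := by
    ext a
    rw [MonoidHom.mem_ker, Subgroup.mem_subgroupOf, Subgroup.mem_inf, mem_kerMap]
    constructor
    · intro h
      exact ⟨a.2, hA a.2, h⟩
    · rintro ⟨_, _, h⟩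
      exact h
  have h1 : Nat.card ↥((A ⊓ φ.ker.map H.subtype).subgroupOf A) = Nat.card ↥(A ⊓ φ.ker.map H.subtype) :=
    Nat.card_congr (subgroupOfEquivOfLe inf_le_left).toEquiv
  have h2 := Subgroup.card_mul_index ρ.ker
  rw [Subgroup.index_ker, hker, h1] at h2
  have h3 : ρ.range = ⊤ := by
    rw [eq_top_iff]
    intro u _
    rcases Int.units_eq_one_or u with rfl | rfl
    · exact Subgroup.one_mem _
    · exact ⟨⟨y, hy⟩, hφ⟩
  rw [h3, Subgroup.card_top] at h2
  have h5 : Nat.card ℤˣ = 2 := by simp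
  rw [h5] at h2
  omega

/-- Odd-order elements are in the kernel of a sign. -/
theorem odd_mem_kerMap {H : Subgroup G} (φ : ↥H →* ℤˣ) {g : G} (hg : g ∈ H) (ho : Odd (orderOf g)) :
    g ∈ φ.ker.map H.subtype := by
  rw [mem_kerMap]
  refine ⟨hg, ?_⟩
  have h1 : (φ ⟨g, hg⟩) ^ orderOf g = 1 := by
    rw [← map_pow]
    have : (⟨g, hg⟩ : ↥H) ^ orderOf g = 1 := by
      apply Subtype.ext
      simp [pow_orderOf_eq_one]
    rw [this, map_one]
  rcases Int.units_eq_one_or (φ ⟨g, hg⟩) with h | h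
  · exact h
  · rw [h, ho.neg_one_pow] at h1
    exact absurd h1 (by decide)

/-- The induction. -/
theorem chain (T : Subgroup G) : ∀ (n : ℕ) (H S D C : Subgroup G), Nat.card D = n →
    T ≤ closure {g | g ∈ H ∧ Odd (orderOf g)} →
    S ≤ H → IsPGroup 2 S → (∃ o, Odd o ∧ Nat.card H = Nat.card S * o) →
    T ≤ S → D ≤ S → D ⊓ T = ⊥ → Nat.card T * Nat.card D = Nat.card S →
    C ≤ D → IsCyclic C → Nat.card D ≤ 2 * Nat.card C →
    (∀ x ∈ D, x ∉ C → x * x = 1) →
    (∀ x ∈ D, x ∉ C → ∀ g : G, g * x * g⁻¹ ∉ T ⊔ C) →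
    (∀ c ∈ C, orderOf c = 2 → ∀ g : G, g * c * g⁻¹ ∉ T) →
    ∃ K : Subgroup G, K ≤ H ∧ (∀ g ∈ H, Odd (orderOf g) → g ∈ K) ∧ K ⊓ D = ⊥ := by
  intro n
  induction n using Nat.strong_induction_on with
  | _ n ih =>
  intro H S D C hn hT hSH hS2 ⟨o, hoo, ho⟩ hTS hDS hDT hc hCD hC hDC hinv h1 h2
  by_cases hD1 : D = ⊥
  · exact ⟨H, le_rfl, fun g hg _ => hg, by rw [hD1, inf_bot_eq]⟩
  have hTH : T ≤ H := hTS.trans hSH
  have hDH : D ≤ H := hDS.trans hSH
  -- the sign homomorphism
  have hsign : ∃ (φ : ↥H →* ℤˣ) (y : G) (hy : y ∈ D), φ ⟨y, hDH hy⟩ = -1 := by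
    by_cases hDC' : D ≤ C
    · -- the cyclic case
      have hCeq : C = D := le_antisymm hCD hDC'
      obtain ⟨r, hr⟩ := IsCyclic.exists_generator (α := ↥C)
      have hC2 : IsPGroup 2 C := hS2.to_le (hCD.trans hDS)
      obtain ⟨k, hk⟩ := IsPGroup.iff_card.1 hC2
      have hord : orderOf (r : G) = 2 ^ k := by
        rw [Subgroup.orderOf_coe, orderOf_eq_card_of_forall_mem_zpowers hr, hk]
      have hk1 : 1 ≤ k := by
        by_contra hcon
        have : k = 0 := by omega
        rw [this, pow_zero] at hk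
        apply hD1
        rw [← hCeq]
        exact (Subgroup.card_eq_one).1 hk
      have hrC : (r : G) ∈ C := r.2
      have hrD : (r : G) ∈ D := hCD hrC
      have hcard : Nat.card D = 2 ^ k := by rw [← hCeq]; exact hk
      have hyk : (⟨r, hDH hrD⟩ : ↥H) ^ 2 ^ k = 1 := by
        apply Subtype.ext
        simp only [SubmonoidClass.mk_pow, OneMemClass.coe_one]
        rw [← hord]
        exact pow_orderOf_eq_one _
      have hfree : ∀ g : ↥H, g * (⟨r, hDH hrD⟩ : ↥H) ^ 2 ^ (k - 1) * g⁻¹ ∉ T.subgroupOf H := by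
        intro g hg
        rw [Subgroup.mem_subgroupOf] at hg
        have hc1 : (r : G) ^ 2 ^ (k - 1) ∈ C := C.pow_mem hrC _
        have hc2 : orderOf ((r : G) ^ 2 ^ (k - 1)) = 2 := by
          apply orderOf_eq_prime
          · rw [← pow_mul, ← pow_succ]
            have : k - 1 + 1 = k := by omega
            rw [this, ← hord]
            exact pow_orderOf_eq_one _
          · apply pow_ne_one_of_lt_orderOf
            · positivity
            · rw [hord]
              exact Nat.pow_lt_pow_right (by norm_num) (by omega)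
        apply h2 _ hc1 hc2 g
        simpa using hg
      have hidx : (T.subgroupOf H).index = 2 ^ k * o := by
        have e1 := Subgroup.index_mul_card (T.subgroupOf H)
        have e2 : Nat.card ↥(T.subgroupOf H) = Nat.card T :=
          Nat.card_congr (subgroupOfEquivOfLe hTH).toEquiv
        rw [e2, ho, ← hc, hcard] at e1
        have h3 : 0 < Nat.card T := Nat.card_pos
        apply Nat.eq_of_mul_eq_mul_right h3
        rw [e1]; ring
      obtain ⟨φ, hφ⟩ := exists_sign (T.subgroupOf H) _ k o hk1 hoo hyk hfree hidx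
      exact ⟨φ, r, hrD, hφ⟩
    · -- the dihedral case
      obtain ⟨x, hxD, hxC⟩ : ∃ x ∈ D, x ∉ C := by
        by_contra hcon
        apply hDC'
        intro x hx
        by_contra h
        exact hcon ⟨x, hx, h⟩
      have hxx := hinv x hxD hxC
      set W := T ⊔ C with hW
      have hWS : W ≤ S := sup_le hTS (hCD.trans hDS)
      have hxW : x ∉ W := by
        have := h1 x hxD hxC 1
        simpa using this
      have hTC : ∀ t ∈ T, ∀ c ∈ C, t * c = 1 → t = 1 ∧ c = 1 := by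
        intro t ht c hc' h
        have h3 : t = c⁻¹ := eq_inv_of_mul_eq_one_left h
        have h4 : t ∈ D ⊓ T := ⟨h3 ▸ D.inv_mem (hCD hc'), ht⟩
        rw [hDT, Subgroup.mem_bot] at h4
        refine ⟨h4, ?_⟩
        rw [h4, one_mul] at h
        exact h
      have hcardW : Nat.card T * Nat.card C ≤ Nat.card W := by
        rw [← Nat.card_prod]
        apply Nat.card_le_card_of_injective
          (fun p : ↥T × ↥C => (⟨p.1 * p.2, W.mul_mem ((le_sup_left : T ≤ W) p.1.2)
            ((le_sup_right : C ≤ W) p.2.2)⟩ : ↥W))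
        rintro ⟨⟨t, ht⟩, ⟨c, hc'⟩⟩ ⟨⟨t', ht'⟩, ⟨c', hc''⟩⟩ h
        have h3 : t * c = t' * c' := congrArg Subtype.val h
        have h4 : (t'⁻¹ * t) * (c * c'⁻¹) = 1 := by
          calc (t'⁻¹ * t) * (c * c'⁻¹) = t'⁻¹ * (t * c) * c'⁻¹ := by group
            _ = t'⁻¹ * (t' * c') * c'⁻¹ := by rw [h3]
            _ = 1 := by group
        obtain ⟨h5, h6⟩ := hTC _ (T.mul_mem (T.inv_mem ht') ht) _ (C.mul_mem hc' (C.inv_mem hc'')) h4
        have h7 : t = t' := by
          have := congrArg (t' * ·) h5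
          simpa using this
        have h8 : c = c' := by
          have := congrArg (· * c') h6
          simpa using this
        subst h7 h8
        rfl
      obtain ⟨i, hi⟩ := Subgroup.card_dvd_of_le hWS
      have hi2 : i = 2 := by
        have h3 : 0 < Nat.card W := Nat.card_pos
        have h4 : i ≠ 0 := by
          rintro rfl
          have : 0 < Nat.card S := Nat.card_pos
          omega
        have h5 : i ≠ 1 := by
          rintro rfl
          rw [mul_one] at hi
          have := Subgroup.eq_of_le_of_card_ge hWS hi.le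
          exact hxW (this ▸ hDS hxD)
        have h6 : Nat.card S ≤ 2 * Nat.card W := by
          calc Nat.card S = Nat.card T * Nat.card D := hc.symm
            _ ≤ Nat.card T * (2 * Nat.card C) := Nat.mul_le_mul_left _ hDC
            _ = 2 * (Nat.card T * Nat.card C) := by ring
            _ ≤ 2 * Nat.card W := Nat.mul_le_mul_left _ hcardW
        rw [hi] at h6
        have h7 : i ≤ 2 := by
          by_contra hcon
          rw [not_le] at hcon
          nlinarith
        omega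
      have hWH : W ≤ H := hWS.trans hSH
      have hyk : (⟨x, hDH hxD⟩ : ↥H) ^ 2 ^ 1 = 1 := by
        apply Subtype.ext
        simp [pow_two, hxx]
      have hfree : ∀ g : ↥H, g * (⟨x, hDH hxD⟩ : ↥H) ^ 2 ^ (1 - 1) * g⁻¹ ∉ W.subgroupOf H := by
        intro g hg
        rw [Subgroup.mem_subgroupOf] at hg
        apply h1 x hxD hxC g
        simpa using hg
      have hidx : (W.subgroupOf H).index = 2 ^ 1 * o := by
        have e1 := Subgroup.index_mul_card (W.subgroupOf H)
        have e2 : Nat.card ↥(W.subgroupOf H) = Nat.card W :=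
          Nat.card_congr (subgroupOfEquivOfLe hWH).toEquiv
        rw [e2, ho, hi, hi2] at e1
        have h3 : 0 < Nat.card W := Nat.card_pos
        apply Nat.eq_of_mul_eq_mul_right h3
        rw [e1]; ring
      obtain ⟨φ, hφ⟩ := exists_sign (W.subgroupOf H) _ 1 o le_rfl hoo hyk hfree hidx
      exact ⟨φ, x, hxD, hφ⟩
  obtain ⟨φ, y, hyD, hφy⟩ := hsign
  -- the kernel
  set H₁ : Subgroup G := φ.ker.map H.subtype with hH₁
  have hH₁H : H₁ ≤ H := Subgroup.map_subtype_le _
  have hodd : ∀ g ∈ H, Odd (orderOf g) → g ∈ H₁ := fun g hg ho => odd_mem_kerMap φ hg ho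
  have hTH₁' : T ≤ closure {g | g ∈ H₁ ∧ Odd (orderOf g)} := by
    refine hT.trans (closure_mono ?_)
    rintro g ⟨hg, hgo⟩
    exact ⟨hodd g hg hgo, hgo⟩
  have hTH₁ : T ≤ H₁ := hTH₁'.trans ((closure_le _).2 (fun g hg => hg.1))
  have hyS := hDS hyD
  have hcH := card_inf_ker' φ H le_rfl (hDH hyD) hφy
  rw [inf_eq_right.2 hH₁H] at hcH
  have hcS := card_inf_ker' φ S hSH hyS hφy
  have hcD := card_inf_ker' φ D hDH hyD hφy
  have hcC := card_inf_ker φ C (hCD.trans hDH)
  rw [← hH₁] at hcS hcD hcC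
  have hD₁lt : Nat.card ↥(D ⊓ H₁) < n := by
    have : 0 < Nat.card ↥(D ⊓ H₁) := Nat.card_pos
    omega
  obtain ⟨K, hKH, hKodd, hKD⟩ := ih _ hD₁lt H₁ (S ⊓ H₁) (D ⊓ H₁) (C ⊓ H₁) rfl hTH₁'
    inf_le_right (hS2.to_le inf_le_left)
    ⟨o, hoo, by
      have : 2 * Nat.card H₁ = 2 * (Nat.card ↥(S ⊓ H₁) * o) := by
        rw [← hcH, ho, hcS]; ring
      omega⟩
    (le_inf hTS hTH₁) (inf_le_inf_right _ hDS)
    (by
      rw [eq_bot_iff]
      intro g hg
      have : g ∈ D ⊓ T := ⟨hg.1.1, hg.2⟩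
      rwa [hDT] at this)
    (by
      have h3 : 2 * (Nat.card T * Nat.card ↥(D ⊓ H₁)) = 2 * Nat.card ↥(S ⊓ H₁) := by
        rw [← hcS, ← hc, hcD]; ring
      omega)
    (inf_le_inf_right _ hCD)
    (isCyclic_of_injective (Subgroup.inclusion (inf_le_left : C ⊓ H₁ ≤ C)) (Subgroup.inclusion_injective _))
    (by omega)
    (by
      intro x hx hxC
      exact hinv x hx.1 (fun h => hxC ⟨h, hx.2⟩))
    (by
      intro x hx hxC g hg
      have hxC' : x ∉ C := fun h => hxC ⟨h, hx.2⟩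
      apply h1 x hx.1 hxC' g
      exact (sup_le_sup_left (inf_le_left : C ⊓ H₁ ≤ C) T) hg)
    (by
      intro c hc' hco g
      exact h2 c hc'.1 hco g)
  refine ⟨K, hKH.trans hH₁H, fun g hg hgo => hKodd g (hodd g hg hgo) hgo, ?_⟩
  rw [eq_bot_iff]
  intro d hd
  have : d ∈ K ⊓ (D ⊓ H₁) := ⟨hd.1, hd.2, hKH hd.1⟩
  rwa [hKD] at this

end Cfsg.Agent.H08.Thom
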