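import Cfsg.Agent.Lib.H08.Thom.Chain
import Cfsg.Agent.Lib.H13.Residual

/-!
# A consequence of Thompson's transfer lemma
-/

set_option autoImplicit false
set_option linter.unusedSectionVars false
set_option linter.unusedVariables false

namespace Cfsg.Agent.H08.Thom

open Subgroup Cfsg DihedralGroup
open scoped Pointwise

universe u

variable {G : Type u} [Group G] [Finite G]

/-- Rotations. -/
def rotSub (n : ℕ) : Subgroup (DihedralGroup n) where
  carrier := {w | ∃ i, w = r i}
  mul_mem' := by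
    rintro _ _ ⟨i, rfl⟩ ⟨j, rfl⟩
    exact ⟨i + j, r_mul_r i j⟩
  one_mem' := ⟨0, one_def⟩
  inv_mem' := by
    rintro _ ⟨i, rfl⟩
    exact ⟨-i, inv_r i⟩

/-- Elements outside a cyclic subgroup of index two in a dihedral group are involutions. -/
theorem dih_inv (D C : Subgroup G) (n : ℕ) (hn : 2 ≤ n) (f : ↥D ≃* DihedralGroup n) (hC : IsCyclic ↥C)
    (hCD : C ≤ D) (hCi : C.relIndex D = 2) : ∀ x ∈ D, x ∉ C → x * x = 1 := by
  haveI : NeZero n := ⟨by omega⟩
  have hcardD : Nat.card D = 2 * n := by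
    rw [Nat.card_congr f.toEquiv, nat_card]
  have hcardC : Nat.card C = n := by
    have h1 := Subgroup.index_mul_card (C.subgroupOf D)
    have h2 : Nat.card ↥(C.subgroupOf D) = Nat.card C :=
      Nat.card_congr (subgroupOfEquivOfLe hCD).toEquiv
    rw [h2, hcardD] at h1
    have h3 : (C.subgroupOf D).index = 2 := hCi
    rw [h3] at h1
    omega
  intro x hxD hxC
  have hinj : ∀ z : ↥D, f z * f z = 1 → (z : G) * z = 1 := by
    intro z hz
    have h1 : f (z * z) = 1 := by rw [map_mul]; exact hz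
    have h2 : z * z = 1 := (map_eq_one_iff f f.injective).1 h1
    exact congrArg Subtype.val h2
  apply hinj ⟨x, hxD⟩
  obtain ⟨r₀, hr₀⟩ := IsCyclic.exists_generator (α := ↥C)
  have hr₀o : orderOf r₀ = n := by
    rw [orderOf_eq_card_of_forall_mem_zpowers hr₀, hcardC]
  set g := f ⟨r₀, hCD r₀.2⟩ with hg
  generalize hw : f ⟨x, hxD⟩ = w
  rcases w with i | i
  · -- a rotation
    rcases hgcase : g with j | j
    · -- `C` consists of rotations
      exfalso
      apply hxC
      have hle : (C.subgroupOf D).map f.toMonoidHom ≤ rotSub n := by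
        rintro _ ⟨c, hc, rfl⟩
        have hc' : (c : G) ∈ C := hc
        obtain ⟨k, hk⟩ := mem_zpowers_iff.1 (hr₀ ⟨c, hc'⟩)
        have h1 : c = (⟨r₀, hCD r₀.2⟩ : ↥D) ^ k := by
          apply Subtype.ext
          have := congrArg Subtype.val hk
          simpa using this.symm
        simp only [MulEquiv.coe_toMonoidHom]
        rw [h1, map_zpow, ← hg, hgcase]
        exact zpow_mem (show r j ∈ rotSub n from ⟨j, rfl⟩) k
      have hcard1 : Nat.card ↥((C.subgroupOf D).map f.toMonoidHom) = n := by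
        have : Nat.card ↥((C.subgroupOf D).map f.toMonoidHom) = Nat.card ↥(C.subgroupOf D) :=
          Nat.card_congr ((C.subgroupOf D).equivMapOfInjective _ f.injective).toEquiv.symm
        rw [this, ← hcardC]
        exact Nat.card_congr (subgroupOfEquivOfLe hCD).toEquiv
      have hcard2 : Nat.card (rotSub n) ≤ n := by
        have h1 : Function.Surjective (fun i : ZMod n => (⟨r i, ⟨i, rfl⟩⟩ : rotSub n)) := by
          rintro ⟨_, i, rfl⟩
          exact ⟨i, rfl⟩
        have := Nat.card_le_card_of_surjective _ h1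
        rwa [Nat.card_zmod] at this
      have heq := Subgroup.eq_of_le_of_card_ge hle (by rw [hcard1]; exact hcard2)
      have h1 : f ⟨x, hxD⟩ ∈ (C.subgroupOf D).map f.toMonoidHom := by
        rw [heq, hw]
        exact ⟨i, rfl⟩
      obtain ⟨c, hc, hce⟩ := h1
      have : c = ⟨x, hxD⟩ := f.injective hce
      rw [this] at hc
      exact hc
    · -- `n = 2`
      have h1 : orderOf g = orderOf r₀ := by
        have e1 : orderOf g = orderOf (⟨r₀, hCD r₀.2⟩ : ↥D) := by
          rw [hg]; exact MulEquiv.orderOf_eq f _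
        have e2 : orderOf (⟨r₀, hCD r₀.2⟩ : ↥D) = orderOf r₀ := by
          rw [Subgroup.orderOf_mk, Subgroup.orderOf_coe]
        rw [e1, e2]
      rw [hgcase, orderOf_sr, hr₀o] at h1
      subst h1
      rw [r_mul_r, one_def]
      congr 1
      have hd : ∀ i : ZMod 2, i + i = 0 := by decide
      exact hd i
  · rw [sr_mul_sr, one_def, sub_self]

/-- A subgroup generated by odd elements. -/
theorem le_closure_odd (L : Subgroup G) (hL : pResidual 2 ↥L = ⊤) :
    L ≤ closure {g : G | g ∈ (⊤ : Subgroup G) ∧ Odd (orderOf g)} := by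
  have h1 : (pResidual 2 ↥L).map L.subtype ≤ closure {g : G | g ∈ (⊤ : Subgroup G) ∧ Odd (orderOf g)} := by
    rw [Subgroup.map_le_iff_le_comap]
    unfold pResidual
    rw [closure_le]
    intro g hg
    apply Subgroup.subset_closure
    refine ⟨mem_top _, ?_⟩
    have h2 : Nat.Coprime (orderOf g) 2 := hg
    simp only [Subgroup.coe_subtype, Subgroup.orderOf_coe]
    exact Nat.coprime_two_right.1 h2
  rw [hL] at h1
  intro l hl
  exact h1 ⟨⟨l, hl⟩, mem_top _, rfl⟩

/-- The main theorem. -/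
theorem main_thm (L T S D C : Subgroup G) (hL : pResidual 2 ↥L = ⊤)
    (hTL : T ≤ L) (hT2 : IsPGroup 2 T) (hTsyl : ¬ 2 ∣ T.relIndex L)
    (hS2 : IsPGroup 2 S) (hSsyl : ¬ 2 ∣ S.index) (hTS : T ≤ S)
    (hDS : D ≤ S) (hDih : ∃ n : ℕ, 2 ≤ n ∧ Nonempty (↥D ≃* DihedralGroup n)) (hDT : D ⊓ T = ⊥) (hTD : T ⊔ D = S)
    (hTDc : Nat.card T * Nat.card D = Nat.card S)
    (hCD : C ≤ D) (hC : IsCyclic ↥C) (hCi : C.relIndex D = 2)
    (h1 : ∀ x ∈ D, x ∉ C → orderOf x = 2 → ∀ g : G, g * x * g⁻¹ ∈ T ⊔ C → False)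
    (h2 : ∀ c ∈ C, orderOf c = 2 → ∀ g : G, g * c * g⁻¹ ∈ T → False) :
    ∃ K : Subgroup G, K.Normal ∧ K ⊔ D = ⊤ ∧
      ∀ T' : Subgroup G, T' ≤ L → IsPGroup 2 T' → ¬ 2 ∣ T'.relIndex L → T' ≤ K ∧ ¬ 2 ∣ T'.relIndex K := by
  haveI : Fact (Nat.Prime 2) := ⟨Nat.prime_two⟩
  obtain ⟨n, hn, ⟨f⟩⟩ := hDih
  have hinv := dih_inv D C n hn f hC hCD hCi
  have hSodd : Odd S.index := Nat.not_even_iff_odd.1 (fun h => hSsyl h.two_dvd)
  have hcardG : Nat.card G = Nat.card S * S.index := (Subgroup.card_mul_index S).symm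
  have hDCc : Nat.card D = 2 * Nat.card C := by
    have h3 := Subgroup.index_mul_card (C.subgroupOf D)
    have h4 : Nat.card ↥(C.subgroupOf D) = Nat.card C :=
      Nat.card_congr (subgroupOfEquivOfLe hCD).toEquiv
    have h5 : (C.subgroupOf D).index = 2 := hCi
    rw [h4, h5] at h3
    exact h3.symm
  obtain ⟨K₀, -, hK₀, hK₀D⟩ := chain T _ ⊤ S D C rfl (hTL.trans (le_closure_odd L hL)) le_top hS2
    ⟨S.index, hSodd, by rw [Subgroup.card_top]; exact hcardG⟩ hTS hDS hDT hTDc hCD hC hDCc.le hinv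
    (by
      intro x hx hxC g hg
      have hx1 : x ≠ 1 := fun h => hxC (h ▸ C.one_mem)
      exact h1 x hx hxC (orderOf_eq_prime (by rw [pow_two]; exact hinv x hx hxC) hx1) g hg)
    (fun c hc hco g hg => h2 c hc hco g hg)
  set K : Subgroup G := pResidual 2 G with hK
  have hKK₀ : K ≤ K₀ := by
    rw [hK]
    unfold pResidual
    rw [closure_le]
    intro g hg
    exact hK₀ g (mem_top g) (Nat.coprime_two_right.1 hg)
  have hKD : K ⊓ D = ⊥ := by
    rw [eq_bot_iff, ← hK₀D]
    exact inf_le_inf_right _ hKK₀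
  have hKn : K.Normal := H13.pResidual_normal'
  have hLK : L ≤ K := by
    have h3 : (pResidual 2 ↥L).map L.subtype ≤ pResidual 2 G := by
      rw [Subgroup.map_le_iff_le_comap]
      unfold pResidual
      rw [closure_le]
      intro g hg
      apply Subgroup.subset_closure
      have h2 : Nat.Coprime (orderOf g) 2 := hg
      show Nat.Coprime (orderOf (g : G)) 2
      rwa [Subgroup.orderOf_coe]
    rw [hL] at h3
    intro l hl
    exact h3 ⟨⟨l, hl⟩, mem_top _, rfl⟩
  have hTK : T ≤ K := hTL.trans hLK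
  -- `K D = G`
  have hKDtop : K ⊔ D = ⊤ := by
    let P : Sylow 2 G := hS2.toSylow hSsyl
    have h3 := H13.sylow_sup_pResidual (p := 2) P
    have h4 : (P : Subgroup G) = S := rfl
    rw [h4, ← hK, ← hTD] at h3
    rw [eq_top_iff, ← h3]
    exact sup_le (sup_le (hTK.trans le_sup_left) le_sup_right) le_sup_left
  -- orders
  have hcardK : Nat.card K * Nat.card D = Nat.card G := by
    have hcomp : IsComplement' K D := by
      apply Subgroup.isComplement'_of_disjoint_and_mul_eq_univ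
      · rw [Subgroup.disjoint_def]
        intro x hx hx'
        have : x ∈ K ⊓ D := ⟨hx, hx'⟩
        rwa [hKD] at this
      · have h3 : ((K ⊔ D : Subgroup G) : Set G) = (K : Set G) * (D : Set G) := Subgroup.normal_mul K D
        rw [← h3, hKDtop]
        rfl
    exact hcomp.card_mul
  have hcardK' : Nat.card K = Nat.card T * S.index := by
    have h3 : 0 < Nat.card D := Nat.card_pos
    apply Nat.eq_of_mul_eq_mul_right h3
    rw [hcardK, hcardG, ← hTDc]
    ring
  refine ⟨K, hKn, hKDtop, ?_⟩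
  intro T' hT'L hT'2 hT'syl
  refine ⟨hT'L.trans hLK, ?_⟩
  -- `T'` and `T` have the same order
  have hT'T : Nat.card T' = Nat.card T := by
    obtain ⟨a, ha⟩ := IsPGroup.iff_card.1 hT'2
    obtain ⟨b, hb⟩ := IsPGroup.iff_card.1 hT2
    have e1 : T'.relIndex L * Nat.card ↥(T'.subgroupOf L) = Nat.card L := Subgroup.index_mul_card _
    have e2 : T.relIndex L * Nat.card ↥(T.subgroupOf L) = Nat.card L := Subgroup.index_mul_card _
    have e3 : Nat.card ↥(T'.subgroupOf L) = Nat.card T' :=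
      Nat.card_congr (subgroupOfEquivOfLe hT'L).toEquiv
    have e4 : Nat.card ↥(T.subgroupOf L) = Nat.card T :=
      Nat.card_congr (subgroupOfEquivOfLe hTL).toEquiv
    rw [e3, ha] at e1
    rw [e4, hb] at e2
    have e5 : T'.relIndex L * 2 ^ a = T.relIndex L * 2 ^ b := e1.trans e2.symm
    have c1 : Nat.Coprime (T'.relIndex L) 2 := (Nat.Prime.coprime_iff_not_dvd Nat.prime_two).2 hT'syl |>.symm
    have c2 : Nat.Coprime (T.relIndex L) 2 := (Nat.Prime.coprime_iff_not_dvd Nat.prime_two).2 hTsyl |>.symm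
    have d1 : 2 ^ a ∣ 2 ^ b := by
      have : 2 ^ a ∣ T.relIndex L * 2 ^ b := ⟨T'.relIndex L, by rw [← e5]; ring⟩
      exact (Nat.Coprime.dvd_of_dvd_mul_left (c2.symm.pow_left a) this)
    have d2 : 2 ^ b ∣ 2 ^ a := by
      have : 2 ^ b ∣ T'.relIndex L * 2 ^ a := ⟨T.relIndex L, by rw [e5]; ring⟩
      exact (Nat.Coprime.dvd_of_dvd_mul_left (c1.symm.pow_left b) this)
    rw [ha, hb]
    exact Nat.dvd_antisymm d1 d2
  have e1 : T'.relIndex K * Nat.card ↥(T'.subgroupOf K) = Nat.card K := Subgroup.index_mul_card _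
  have e3 : Nat.card ↥(T'.subgroupOf K) = Nat.card T' :=
    Nat.card_congr (subgroupOfEquivOfLe (hT'L.trans hLK)).toEquiv
  rw [e3, hT'T, hcardK', mul_comm] at e1
  have h3 : 0 < Nat.card T := Nat.card_pos
  have e2 := Nat.eq_of_mul_eq_mul_left h3 e1
  rw [e2]
  exact hSsyl

end Cfsg.Agent.H08.Thom
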